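import Cfsg.Agent.H681.IP.Row
import Cfsg.Agent.MTwelveType.SylowModel

/-!
# S4933: the row `M₁₂`, `p = 2` (helper243)
-/

set_option autoImplicit false
set_option maxRecDepth 100000

namespace Cfsg.Agent.H243.HT

open Cfsg Subgroup Cfsg.Agent.H316.HT Cfsg.Agent.MTwelveType.SylowModel
open scoped commutatorElement

/-- a row passes to isomorphic groups -/
theorem row_congr {p : ℕ} {S T : Type*} [Group S] [Group T] (e : S ≃* T) (h : Row p T) : Row p S := by
  intro A _ _ N _ ⟨f⟩ hc M hM P a ha hcd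
  exact h A N ⟨f.trans e⟩ hc M hM P a ha hcd

theorem ne_M12 {x y : Spor.M12} (h : ¬ ∀ p : GolayPt, x.1 p = y.1 p) : x ≠ y := fun e => h fun p => by rw [e]

theorem mA : A ∈ hom.range := ⟨⟨1, 0, false, false⟩, ext_M12 (by decide +kernel)⟩
theorem mB : B ∈ hom.range := ⟨⟨0, 1, false, false⟩, ext_M12 (by decide +kernel)⟩
theorem mC : C ∈ hom.range := ⟨⟨0, 0, true, false⟩, ext_M12 (by decide +kernel)⟩
theorem mD : D ∈ hom.range := ⟨⟨0, 0, false, true⟩, ext_M12 (by decide +kernel)⟩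

theorem class_three : ⁅⁅A, D⁆, C⁆ ≠ 1 := ne_M12 (by decide +kernel)

theorem ne1 : (A * B) * C ≠ C * (A * B) := ne_M12 (by decide +kernel)
theorem ne2 : D * A ^ 2 ≠ A ^ 2 * D := ne_M12 (by decide +kernel)
theorem c1 : (A * B) * D = D * (A * B) := ext_M12 (by decide +kernel)
theorem c2 : (A * B) * A ^ 2 = A ^ 2 * (A * B) := ext_M12 (by decide +kernel)
theorem c4 : C * A ^ 2 = A ^ 2 * C := ext_M12 (by decide +kernel)

/-- **`M₁₂`, `p = 2`** -/
theorem row2_m12 (hIP : H681.IP.IPTwo) {S : Type} [Group S] (h : Spor.IsoM12 S) : Row 2 S := by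
  obtain ⟨e⟩ := h
  refine row_congr e ?_
  have hX : IsPGroup 2 hom.range := IsPGroup.of_card (n := 6) (by rw [card_range_hom]; norm_num)
  exact H681.IP.row_two hIP hom.range hX mA mD mC class_three hom.range hX (mul_mem mA mB) mC mD (pow_mem mA 2)
    ne1 ne2 c1 c2 relCD c4

end Cfsg.Agent.H243.HT
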